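import Cfsg.Agent.H742.EX.Q2Num
import Cfsg.Agent.H209.EPX.Defs
import Cfsg.Agent.H163.PG.Ord
import Cfsg.Agent.S0293
import Cfsg.Agent.S0294
import Cfsg.Agent.S0817
import Cfsg.Agent.S0818
import Cfsg.Agent.S0815
import Cfsg.Agent.S0280
import Cfsg.Agent.S1059
import Cfsg.Agent.S1062
import Cfsg.Agent.S1063
import Cfsg.Agent.S1064
import Cfsg.Agent.S1065
import Cfsg.Agent.S1066
import Cfsg.Agent.S1067
import Cfsg.Agent.S1068

/-!
# S5745, socles over the field with two elements: the index is too small (helper742)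

`G` exceptional over `GF(2^f)`, `EPS H N e` with `k = 1`, `T ≅ L_d(2)`, `Sp_2d(2)`, `Ω^±_2d(2)`, `U_4(2)`:
`|G : H| > n (n + 1)` for the number `n` of points. So the polar space engine of helper869
(`H.index ≤ n (n + 1)`) is a contradiction.

* `fam_e8` .. `fam_tf4` : the hypothesis on `|G|`;
* `dead` : the general form; `dead_psl`, `dead_psp`, `dead_op`, `dead_om`, `dead_psu4`.
-/

set_option autoImplicit false
set_option linter.unusedSectionVars false

namespace Cfsg.Agent.H742.EX.Q2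

open Subgroup Cfsg Cfsg.Agent.H284 Cfsg.Agent.H209.EPX

/-! ### the orders of the groups `G` -/

/-- `|G|` is the order of the family `F` over `GF(2^f)` -/
def IsOrd (F : Fam) (f : ℕ) (G : Type*) : Prop := zF F (2 ^ f) * Nat.card G = (2 ^ f) ^ NF F * hF F (2 ^ f)

section fam

variable {K : Type*} [Field K] [Fintype K] {f : ℕ}

theorem fam_g2 (h : Fintype.card K = 2 ^ f) : IsOrd .g2 f ↥(Lie.chevG2.group K) := by
  have h1 := Cfsg.Agent.S1059.result h
  simp only [IsOrd, zF, NF, hF]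
  rw [h1]; ring

theorem fam_f4 (h : Fintype.card K = 2 ^ f) : IsOrd .f4 f ↥(Lie.chevF4.group K) := by
  have h1 := Cfsg.Agent.S1062.result h
  simp only [IsOrd, zF, NF, hF]
  rw [h1]; ring

theorem fam_e6 (h : Fintype.card K = 2 ^ f) : IsOrd .e6 f ↥(Lie.chevE6.group K) := by
  have h1 := Cfsg.Agent.S1063.result h
  simp only [IsOrd, zF, NF, hF]
  rw [h1]; ring

theorem fam_e7 (h : Fintype.card K = 2 ^ f) : IsOrd .e7 f ↥(Lie.chevE7.group K) := by
  have h1 := Cfsg.Agent.S1064.result h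
  simp only [IsOrd, zF, NF, hF]
  rw [h1]; ring

theorem fam_e8 (h : Fintype.card K = 2 ^ f) : IsOrd .e8 f ↥(Lie.chevE8.group K) := by
  have h1 := Cfsg.Agent.S1065.result h
  simp only [IsOrd, zF, NF, hF]
  rw [h1]; ring

theorem isPrimePow_two {f : ℕ} (hf : 1 ≤ f) : IsPrimePow (2 ^ f) :=
  Nat.prime_two.isPrimePow.pow (by omega)

theorem fam_te6 (hf : 1 ≤ f) (h : Fintype.card K = (2 ^ f) ^ 2) : IsOrd .te6 f ↥(Lie.twistedE6 K (2 ^ f)) := by
  have h1 := Cfsg.Agent.S1066.result (isPrimePow_two hf) h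
  simp only [IsOrd, zF, NF, hF]
  rw [h1]; ring

theorem fam_td4 (hf : 1 ≤ f) (h : Fintype.card K = (2 ^ f) ^ 3) : IsOrd .td4 f ↥(Lie.twistedD4 K (2 ^ f)) := by
  have h1 := Cfsg.Agent.S1067.result (isPrimePow_two hf) h
  simp only [IsOrd, zF, NF, hF]
  rw [h1]; ring

theorem fam_tf4 {m : ℕ} (h : Fintype.card K = 2 ^ (2 * m + 1)) : IsOrd .tf4 (2 * m + 1) ↥(Lie.twistedF4 K (2 ^ m)) := by
  have h1 := Cfsg.Agent.S1068.result h
  simp only [IsOrd, zF, NF, hF]
  rw [h1]; ring

end fam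

/-! ### `|H| ≤ |Aut T|` -/

section gen

variable {G : Type*} [Group G] {H N : Subgroup G}

/-- the action of `H` on `N` -/
noncomputable def act (h : NIn N H) : H →* MulAut N where
  toFun g :=
    { toFun := fun n => ⟨g * n * (g : G)⁻¹, h.nrm g g.2 n n.2⟩
      invFun := fun n => ⟨(g : G)⁻¹ * n * g, by
        have := h.nrm (g : G)⁻¹ (inv_mem g.2) n n.2
        rwa [inv_inv] at this⟩
      left_inv := fun n => Subtype.ext (by simp [mul_assoc])
      right_inv := fun n => Subtype.ext (by simp [mul_assoc])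
      map_mul' := fun a b => Subtype.ext (by simp [mul_assoc]) }
  map_one' := by
    ext n
    simp
  map_mul' := fun a b => by
    ext n
    simp [mul_assoc]

variable [Finite G] {T : Type} [Group T] {e : N ≃* (Fin 1 → T)}

theorem card_H_le (h : EPS H N e) : Nat.card H ≤ Nat.card (MulAut T) := by
  let e' : N ≃* T := e.trans (MulEquiv.funUnique (Fin 1) T)
  have hfT : Finite T := Finite.of_equiv N e'.toEquiv
  have hfA : Finite (MulAut T) := inferInstance
  let f : H →* MulAut T := (MulAut.congr e').toMonoidHom.comp (act h.toNIn)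
  have hf : Function.Injective f := by
    have h1 : Function.Injective (act h.toNIn) := by
      rw [injective_iff_map_eq_one]
      intro g hg
      have h2 : (g : G) ∈ Subgroup.centralizer (N : Set G) := by
        rw [Subgroup.mem_centralizer_iff]
        intro n hn
        have h3 := congrArg (fun φ : MulAut N => ((φ ⟨n, hn⟩ : N) : G)) hg
        have h4 : (g : G) * n * (g : G)⁻¹ = n := h3
        rw [mul_inv_eq_iff_eq_mul] at h4
        exact h4.symm
      rw [h.cent, mem_bot] at h2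
      exact Subtype.ext h2
    exact (MulAut.congr e').injective.comp h1
  exact Nat.card_le_card_of_injective f hf

theorem card_T_dvd (h : EPS H N e) : Nat.card T ∣ Nat.card G := by
  have h1 := Subgroup.card_subgroup_dvd_card N
  rwa [Nat.card_congr (e.trans (MulEquiv.funUnique (Fin 1) T)).toEquiv] at h1

/-- **The general form** -/
theorem dead {F : Fam} {t : Ty} {f d : ℕ} (hok : okF F f = true) (hd : d0 t ≤ d) (hG : IsOrd F f G)
    (h : EPS H N e) (hT : Nat.card T = oT t d) (hA : Nat.card (MulAut T) ≤ uT t * oT t d)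
    (hi : H.index ≤ 2 ^ cT t d) : False := by
  have h1 : oT t d ∣ Nat.card G := hT ▸ card_T_dvd h
  have h2 := num hok hd hG h1
  have h3 : Nat.card G ≤ BT t d := by
    rw [← H.card_mul_index]
    exact Nat.mul_le_mul ((card_H_le h).trans hA) hi
  omega

end gen

/-! ### the groups `T` -/

section T

theorem pr1_eq (n : ℕ) : pr1 n = ∏ i ∈ Finset.range n, (2 ^ (i + 2) - 1) := by
  induction n with
  | zero => rfl
  | succ n ih => rw [Finset.prod_range_succ, ← ih]; rfl

theorem pr2_eq (n : ℕ) : pr2 n = ∏ i ∈ Finset.range n, (2 ^ (2 * (i + 1)) - 1) := by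
  induction n with
  | zero => rfl
  | succ n ih => rw [Finset.prod_range_succ, ← ih]; rfl

variable {K : Type} [Field K] [Fintype K]

theorem card_psl_two (hK : Fintype.card K = 2) {d : ℕ} (hd : 2 ≤ d) :
    Nat.card (Matrix.ProjectiveSpecialLinearGroup (Fin d) K) = oT .L d := by
  have h1 := Cfsg.Agent.H163.PG.card_psl (F := K) hd
  rw [hK, show (2 - 1 : ℕ) = 1 by rfl, Nat.gcd_one_right, one_mul] at h1
  rw [h1, oT, pr1_eq]

theorem aut_psl_two (hK : Fintype.card K = 2) {d : ℕ} (hd : 3 ≤ d) :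
    Nat.card (MulAut (Matrix.ProjectiveSpecialLinearGroup (Fin d) K)) ≤ uT .L * oT .L d := by
  have : Fact (Nat.Prime 2) := ⟨Nat.prime_two⟩
  have h1 := Cfsg.Agent.S0813.result (F := K) 2 1 le_rfl (by rw [hK, pow_one]) d (by omega) (by omega)
  rw [if_neg (by omega), Cfsg.Agent.H163.PG.card_pgl (by omega), hK, show (2 - 1 : ℕ) = 1 by rfl, Nat.gcd_one_right,
    one_mul, mul_one, card_psl_two hK (by omega)] at h1
  exact h1.le

theorem card_psp_two (hK : Fintype.card K = 2) {d : ℕ} (hd : 1 ≤ d) : Nat.card (PSp d K) = oT .Sp d := by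
  have h1 := Cfsg.Agent.H163.PG.card_psp (F := K) hd
  rw [hK, show (2 - 1 : ℕ) = 1 by rfl, Nat.gcd_one_right, one_mul] at h1
  rw [h1, oT, pr2_eq]

theorem aut_psp_two (hK : Fintype.card K = 2) {d : ℕ} (hd : 3 ≤ d) :
    Nat.card (MulAut (PSp d K)) ≤ uT .Sp * oT .Sp d := by
  have : Fact (Nat.Prime 2) := ⟨Nat.prime_two⟩
  have h1 := Cfsg.Agent.S0814.result (F := K) 2 1 le_rfl (by rw [hK, pow_one]) d (by omega) (by omega)
  rw [if_neg (by omega), card_psp_two hK (by omega)] at h1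
  rw [h1]
  norm_num [uT]

theorem card_op_two (hK : Fintype.card K = 2) {d : ℕ} (hd : 4 ≤ d) : Nat.card (POmega K (quadFormPlus d K)) = oT .Op d := by
  have h1 := Cfsg.Agent.S0293.result (F := K) hK d hd
  have h2 : Nat.gcd 4 (2 ^ d - 1) = 1 := by
    have h3 : Nat.Coprime (2 ^ 2) (2 ^ d - 1) :=
      (Nat.coprime_two_left.2 (Nat.Even.sub_odd Nat.one_le_two_pow ((Nat.even_pow' (by omega)).2 even_two) odd_one)).pow_left 2
    exact h3
  rw [h2, one_mul] at h1
  rw [h1, oT, pr2_eq]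

theorem aut_op_two (hK : Fintype.card K = 2) {d : ℕ} (hd : 4 ≤ d) :
    Nat.card (MulAut (POmega K (quadFormPlus d K))) ≤ uT .Op * oT .Op d := by
  have : Fact (Nat.Prime 2) := ⟨Nat.prime_two⟩
  have h1 := Cfsg.Agent.S0817.result (F := K) 2 1 le_rfl (by rw [hK, pow_one]) d hd
  rw [if_pos rfl, card_op_two hK hd, mul_one] at h1
  rw [h1]
  refine Nat.mul_le_mul_right _ ?_
  split_ifs <;> norm_num [uT]

theorem card_om_two (hK : Fintype.card K = 2) {d : ℕ} (hd : 4 ≤ d) {a b : K}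
    (hab : ∀ z₁ z₂ : K, z₁ ^ 2 + a * z₁ * z₂ + b * z₂ ^ 2 = 0 → z₁ = 0 ∧ z₂ = 0) :
    Nat.card (POmega K (quadFormMinus (d - 1) K a b)) = oT .Om d := by
  have h1 := Cfsg.Agent.S0294.result (F := K) hK d hd a b hab
  have h2 : Nat.gcd 4 (2 ^ d + 1) = 1 := by
    have h3 : Nat.Coprime (2 ^ 2) (2 ^ d + 1) :=
      (Nat.coprime_two_left.2 (((Nat.even_pow' (by omega)).2 even_two).add_odd odd_one)).pow_left 2
    exact h3
  rw [h2, one_mul] at h1
  rw [h1, oT, pr2_eq]

theorem aut_om_two (hK : Fintype.card K = 2) {d : ℕ} (hd : 4 ≤ d) {a b : K}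
    (hab : ∀ z₁ z₂ : K, z₁ ^ 2 + a * z₁ * z₂ + b * z₂ ^ 2 = 0 → z₁ = 0 ∧ z₂ = 0) :
    Nat.card (MulAut (POmega K (quadFormMinus (d - 1) K a b))) ≤ uT .Om * oT .Om d := by
  have : Fact (Nat.Prime 2) := ⟨Nat.prime_two⟩
  have h1 := Cfsg.Agent.S0818.result (F := K) 2 1 le_rfl (by rw [hK, pow_one]) d hd a b hab
  rw [if_pos rfl, card_om_two hK hd hab, mul_one] at h1
  rw [h1]
  exact le_rfl

end T

/-! ### the rows -/

section rows

variable {G : Type*} [Group G] [Finite G] {H N : Subgroup G} {T : Type} [Group T] {e : N ≃* (Fin 1 → T)}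
  {F : Fam} {f : ℕ} {K : Type} [Field K] [Fintype K]

theorem aut_congr {S : Type} [Group S] (g : T ≃* S) : Nat.card (MulAut T) = Nat.card (MulAut S) :=
  Nat.card_congr (MulAut.congr g).toEquiv

theorem le_pow_of {n a : ℕ} (h : n + 1 ≤ 2 ^ a) : n * (n + 1) ≤ 2 ^ (2 * a) := by
  rw [two_mul, pow_add]
  exact Nat.mul_le_mul (by omega) h

/-- **`L_d(2)`**, `n ≤ 2 ^ d - 1` (or `L_4(2)`, `n = 35`) -/
theorem dead_psl (hok : okF F f = true) (hG : IsOrd F f G) (h : EPS H N e) (hK : Fintype.card K = 2) {d : ℕ} (hd : 3 ≤ d)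
    (g : T ≃* Matrix.ProjectiveSpecialLinearGroup (Fin d) K) {n : ℕ} (hn : n + 1 ≤ 2 ^ d ∨ (d = 4 ∧ n = 35))
    (hi : H.index ≤ n * (n + 1)) : False := by
  refine dead (t := .L) (d := d) hok hd hG h (by rw [Nat.card_congr g.toEquiv, card_psl_two hK (by omega)])
    (by rw [aut_congr g]; exact aut_psl_two hK hd) (hi.trans ?_)
  rcases hn with hn | ⟨rfl, rfl⟩
  · exact (le_pow_of hn).trans (Nat.pow_le_pow_right (by norm_num) (by simp only [cT]; omega))
  · simp only [cT]
    norm_num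

/-- **`Sp_2d(2)`**, `n ≤ 2 ^ (2 d) - 1` -/
theorem dead_psp (hok : okF F f = true) (hG : IsOrd F f G) (h : EPS H N e) (hK : Fintype.card K = 2) {d : ℕ} (hd : 3 ≤ d)
    (g : T ≃* PSp d K) {n : ℕ} (hn : n + 1 ≤ 2 ^ (2 * d)) (hi : H.index ≤ n * (n + 1)) : False := by
  refine dead (t := .Sp) (d := d) hok hd hG h (by rw [Nat.card_congr g.toEquiv, card_psp_two hK (by omega)])
    (by rw [aut_congr g]; exact aut_psp_two hK hd) (hi.trans ?_)
  exact (le_pow_of hn).trans (Nat.pow_le_pow_right (by norm_num) (by simp only [cT]; omega))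

/-- **`Ω⁺_2d(2)`**, `n ≤ 2 ^ (2 d) - 1` -/
theorem dead_op (hok : okF F f = true) (hG : IsOrd F f G) (h : EPS H N e) (hK : Fintype.card K = 2) {d : ℕ} (hd : 4 ≤ d)
    (g : T ≃* POmega K (quadFormPlus d K)) {n : ℕ} (hn : n + 1 ≤ 2 ^ (2 * d)) (hi : H.index ≤ n * (n + 1)) : False := by
  refine dead (t := .Op) (d := d) hok hd hG h (by rw [Nat.card_congr g.toEquiv, card_op_two hK hd])
    (by rw [aut_congr g]; exact aut_op_two hK hd) (hi.trans ?_)
  exact (le_pow_of hn).trans (Nat.pow_le_pow_right (by norm_num) (by simp only [cT]; omega))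

/-- **`Ω⁻_2d(2)`**, `n ≤ 2 ^ (2 d) - 1` -/
theorem dead_om (hok : okF F f = true) (hG : IsOrd F f G) (h : EPS H N e) (hK : Fintype.card K = 2) {d : ℕ} (hd : 4 ≤ d)
    {a b : K} (hab : ∀ z₁ z₂ : K, z₁ ^ 2 + a * z₁ * z₂ + b * z₂ ^ 2 = 0 → z₁ = 0 ∧ z₂ = 0)
    (g : T ≃* POmega K (quadFormMinus (d - 1) K a b)) {n : ℕ} (hn : n + 1 ≤ 2 ^ (2 * d))
    (hi : H.index ≤ n * (n + 1)) : False := by
  refine dead (t := .Om) (d := d) hok hd hG h (by rw [Nat.card_congr g.toEquiv, card_om_two hK hd hab])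
    (by rw [aut_congr g]; exact aut_om_two hK hd hab) (hi.trans ?_)
  exact (le_pow_of hn).trans (Nat.pow_le_pow_right (by norm_num) (by simp only [cT]; omega))

theorem low_chk : ((List.range 3).all fun f => [Fam.e8, .e7, .e6, .te6, .f4, .g2, .td4, .tf4].all fun F =>
    !(okF F f) || Nat.blt 39191040 (gF F f)) = true := by decide +kernel

/-- every `|G|` is larger than `51840 * 27 * 28` -/
theorem low {g : ℕ} (hok : okF F f = true) (hG : zF F (2 ^ f) * g = (2 ^ f) ^ NF F * hF F (2 ^ f)) : 39191040 < g := by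
  by_cases hf : f < 3
  · have h := low_chk
    rw [List.all_eq_true] at h
    have h1 := h f (List.mem_range.2 hf)
    rw [List.all_eq_true] at h1
    have h2 := h1 F (by cases F <;> simp)
    rw [hok, Bool.not_true, Bool.false_or, Nat.blt_eq, gF_eq hG] at h2
    exact h2
  · have h1 := g_ge (by omega) hG
    have h2 : 42 ≤ (2 * NF F + lF F) * f := by
      have h3 : 14 ≤ 2 * NF F + lF F := by cases F <;> decide
      calc 42 = 14 * 3 := by norm_num
        _ ≤ _ := Nat.mul_le_mul h3 (by omega)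
    have h3 : 2 ^ 42 ≤ 2 ^ 10 * g := (Nat.pow_le_pow_right (by norm_num) h2).trans h1
    norm_num at h3
    omega

theorem card_psu_four (hK : Fintype.card K = 4) : Nat.card (PSU 4 K 2) = 25920 := by
  have h1 := Cfsg.Agent.S0280.result (F := K) (q := 2) (by rw [hK]; norm_num) 4 (by norm_num)
  have h2 : (2 : ℕ) ^ (4 * (4 - 1) / 2) * ∏ i ∈ Finset.range 4, (if Even i then 2 ^ (i + 1) + 1 else 2 ^ (i + 1) - 1) =
      77760 := by decide
  rw [h2, show Nat.gcd 4 (2 + 1) = 1 by decide] at h1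
  omega

/-- **`U_4(2)`**, `n ≤ 27` -/
theorem dead_psu4 (hok : okF F f = true) (hG : IsOrd F f G) (h : EPS H N e) (hK : Fintype.card K = 4)
    (g : T ≃* PSU 4 K 2) {n : ℕ} (hn : n ≤ 27) (hi : H.index ≤ n * (n + 1)) :
    False := by
  have : Fact (Nat.Prime 2) := ⟨Nat.prime_two⟩
  have h1 := Cfsg.Agent.S0815.result (F := K) 2 1 le_rfl (q := 2) (pow_one 2).symm (by rw [hK]; norm_num) 4 (by norm_num)
    (by norm_num)
  have h2 : Nat.card (MulAut T) = 51840 := by
    rw [aut_congr g, h1, card_psu_four hK, show Nat.gcd 4 (2 + 1) = 1 by decide]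
  have h3 := card_H_le h
  rw [h2] at h3
  have h4 := low hok hG
  have h5 : H.index ≤ 27 * 28 := hi.trans (Nat.mul_le_mul hn (by omega))
  have h6 : Nat.card G ≤ 51840 * (27 * 28) := by
    rw [← H.card_mul_index]
    exact Nat.mul_le_mul h3 h5
  omega

end rows

end Cfsg.Agent.H742.EX.Q2
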