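import Mathlib

/-!
# S5745, socles over the field with two elements: the numbers (helper742)

`T` of type `L` (`L_d(2)`), `Sp` (`Sp_2d(2)`), `Op`, `Om` (`Ω^±_2d(2)`), `G` exceptional over `GF(2^f)`.
`num` : if `|T|` divides `|G|` then `|Out T| |T| 2 ^ c < |G|`, `c = 3 d` for `L`, `4 d` otherwise.
-/

set_option autoImplicit false

namespace Cfsg.Agent.H742.EX.Q2

/-- `(2^2-1)(2^4-1)...(2^(2n)-1)` -/
def pr2 : ℕ → ℕ
  | 0 => 1
  | n + 1 => pr2 n * (2 ^ (2 * (n + 1)) - 1)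

/-- `(2^2-1)(2^3-1)...(2^(n+1)-1)` -/
def pr1 : ℕ → ℕ
  | 0 => 1
  | n + 1 => pr1 n * (2 ^ (n + 2) - 1)

/-- the types of the socle -/
inductive Ty
  | L
  | Sp
  | Op
  | Om

/-- the exponent of the `2`-part of `|T|` -/
def nT : Ty → ℕ → ℕ
  | .L, d => d * (d - 1) / 2
  | .Sp, d => d ^ 2
  | .Op, d => d * (d - 1)
  | .Om, d => d * (d - 1)

/-- `|T|` -/
def oT : Ty → ℕ → ℕ
  | .L, d => 2 ^ (d * (d - 1) / 2) * pr1 (d - 1)
  | .Sp, d => 2 ^ (d ^ 2) * pr2 d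
  | .Op, d => 2 ^ (d * (d - 1)) * (2 ^ d - 1) * pr2 (d - 1)
  | .Om, d => 2 ^ (d * (d - 1)) * (2 ^ d + 1) * pr2 (d - 1)

/-- `|Out T| ≤` -/
def uT : Ty → ℕ
  | .L => 2
  | .Sp => 1
  | .Op => 6
  | .Om => 2

/-- the index is at most `2 ^ c` -/
def cT : Ty → ℕ → ℕ
  | .L, d => 3 * d
  | .Sp, d => 4 * d
  | .Op, d => 4 * d
  | .Om, d => 4 * d

/-- the bound -/
def BT (t : Ty) (d : ℕ) : ℕ := uT t * oT t d * 2 ^ cT t d

/-- the families of `G` -/
inductive Fam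
  | e8
  | e7
  | e6
  | te6
  | f4
  | g2
  | td4
  | tf4

/-- the number of positive roots -/
def NF : Fam → ℕ
  | .e8 => 120
  | .e7 => 63
  | .e6 => 36
  | .te6 => 36
  | .f4 => 24
  | .g2 => 6
  | .td4 => 12
  | .tf4 => 12

/-- the dimension minus twice the number of positive roots -/
def lF : Fam → ℕ
  | .e8 => 8
  | .e7 => 7
  | .e6 => 6
  | .te6 => 6
  | .f4 => 4
  | .g2 => 2
  | .td4 => 4
  | .tf4 => 2

/-- the odd part of the order -/
def hF : Fam → ℕ → ℕ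
  | .e8, q => (q ^ 2 - 1) * (q ^ 8 - 1) * (q ^ 12 - 1) * (q ^ 14 - 1) * (q ^ 18 - 1) * (q ^ 20 - 1) * (q ^ 24 - 1) *
      (q ^ 30 - 1)
  | .e7, q => (q ^ 2 - 1) * (q ^ 6 - 1) * (q ^ 8 - 1) * (q ^ 10 - 1) * (q ^ 12 - 1) * (q ^ 14 - 1) * (q ^ 18 - 1)
  | .e6, q => (q ^ 2 - 1) * (q ^ 5 - 1) * (q ^ 6 - 1) * (q ^ 8 - 1) * (q ^ 9 - 1) * (q ^ 12 - 1)
  | .te6, q => (q ^ 2 - 1) * (q ^ 5 + 1) * (q ^ 6 - 1) * (q ^ 8 - 1) * (q ^ 9 + 1) * (q ^ 12 - 1)
  | .f4, q => (q ^ 2 - 1) * (q ^ 6 - 1) * (q ^ 8 - 1) * (q ^ 12 - 1)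
  | .g2, q => (q ^ 2 - 1) * (q ^ 6 - 1)
  | .td4, q => (q ^ 2 - 1) * (q ^ 6 - 1) * (q ^ 8 + q ^ 4 + 1)
  | .tf4, q => (q - 1) * (q ^ 3 + 1) * (q ^ 4 - 1) * (q ^ 6 + 1)

/-- the index of the centre -/
def zF : Fam → ℕ → ℕ
  | .e8, _ => 1
  | .e7, q => Nat.gcd 2 (q - 1)
  | .e6, q => Nat.gcd 3 (q - 1)
  | .te6, q => Nat.gcd 3 (q + 1)
  | .f4, _ => 1
  | .g2, _ => 1
  | .td4, _ => 1
  | .tf4, _ => 1

/-- `|G|` over `GF(2^f)` -/
def gF (F : Fam) (f : ℕ) : ℕ := (2 ^ f) ^ NF F * hF F (2 ^ f) / zF F (2 ^ f)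

/-- the admissible `f` -/
def okF : Fam → ℕ → Bool
  | .e8, f => Nat.ble 1 f
  | .e7, f => Nat.ble 1 f
  | .e6, f => Nat.ble 1 f
  | .te6, f => Nat.ble 1 f
  | .f4, f => Nat.ble 1 f
  | .g2, f => Nat.ble 2 f
  | .td4, f => Nat.ble 1 f
  | .tf4, f => Nat.ble 3 f && Nat.beq (f % 2) 1

/-- the least `d` -/
def d0 : Ty → ℕ
  | .L => 3
  | .Sp => 3
  | .Op => 4
  | .Om => 4

/-- the kernel check -/
def chk (F : Fam) (t : Ty) (F0 D0 : ℕ) : Bool :=
  (List.range F0).all fun f => !(okF F f) || (List.range D0).all fun d =>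
    Nat.blt d (d0 t) || Nat.blt (NF F * f) (nT t d) || Nat.ble (2 * nT t d + 5 * d + 14) ((2 * NF F + lF F) * f) ||
      Nat.blt (BT t d) (gF F f) || !(Nat.beq (gF F f % oT t d) 0)


theorem chk_e8_L : chk .e8 .L 98 154 = true := by decide +kernel

theorem chk_e8_Sp : chk .e8 .Sp 98 154 = true := by decide +kernel

theorem chk_e8_Op : chk .e8 .Op 98 154 = true := by decide +kernel

theorem chk_e8_Om : chk .e8 .Om 98 154 = true := by decide +kernel

theorem chk_e7_L : chk .e7 .L 70 94 = true := by decide +kernel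

theorem chk_e7_Sp : chk .e7 .Sp 70 94 = true := by decide +kernel

theorem chk_e7_Op : chk .e7 .Op 70 94 = true := by decide +kernel

theorem chk_e7_Om : chk .e7 .Om 70 94 = true := by decide +kernel

theorem chk_e6_L : chk .e6 .L 56 64 = true := by decide +kernel

theorem chk_e6_Sp : chk .e6 .Sp 56 64 = true := by decide +kernel

theorem chk_e6_Op : chk .e6 .Op 56 64 = true := by decide +kernel

theorem chk_e6_Om : chk .e6 .Om 56 64 = true := by decide +kernel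

theorem chk_te6_L : chk .te6 .L 56 64 = true := by decide +kernel

theorem chk_te6_Sp : chk .te6 .Sp 56 64 = true := by decide +kernel

theorem chk_te6_Op : chk .te6 .Op 56 64 = true := by decide +kernel

theorem chk_te6_Om : chk .te6 .Om 56 64 = true := by decide +kernel

theorem chk_f4_L : chk .f4 .L 84 64 = true := by decide +kernel

theorem chk_f4_Sp : chk .f4 .Sp 84 64 = true := by decide +kernel

theorem chk_f4_Op : chk .f4 .Op 84 64 = true := by decide +kernel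

theorem chk_f4_Om : chk .f4 .Om 84 64 = true := by decide +kernel

theorem chk_g2_L : chk .g2 .L 92 34 = true := by decide +kernel

theorem chk_g2_Sp : chk .g2 .Sp 92 34 = true := by decide +kernel

theorem chk_g2_Op : chk .g2 .Op 92 34 = true := by decide +kernel

theorem chk_g2_Om : chk .g2 .Om 92 34 = true := by decide +kernel

theorem chk_td4_L : chk .td4 .L 46 34 = true := by decide +kernel

theorem chk_td4_Sp : chk .td4 .Sp 46 34 = true := by decide +kernel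

theorem chk_td4_Op : chk .td4 .Op 46 34 = true := by decide +kernel

theorem chk_td4_Om : chk .td4 .Om 46 34 = true := by decide +kernel

theorem chk_tf4_L : chk .tf4 .L 167 64 = true := by decide +kernel

theorem chk_tf4_Sp : chk .tf4 .Sp 167 64 = true := by decide +kernel

theorem chk_tf4_Op : chk .tf4 .Op 167 64 = true := by decide +kernel

theorem chk_tf4_Om : chk .tf4 .Om 167 64 = true := by decide +kernel

/-- the bounds of the check -/
def FF : Fam → ℕ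
  | .e8 => 98
  | .e7 => 70
  | .e6 => 56
  | .te6 => 56
  | .f4 => 84
  | .g2 => 92
  | .td4 => 46
  | .tf4 => 167

/-- the bounds of the check -/
def DD : Fam → ℕ
  | .e8 => 154
  | .e7 => 94
  | .e6 => 64
  | .te6 => 64
  | .f4 => 64
  | .g2 => 34
  | .td4 => 34
  | .tf4 => 64

theorem chk_all (F : Fam) (t : Ty) : chk F t (FF F) (DD F) = true := by
  cases F <;> cases t
  · exact chk_e8_L
  · exact chk_e8_Sp
  · exact chk_e8_Op
  · exact chk_e8_Om
  · exact chk_e7_L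
  · exact chk_e7_Sp
  · exact chk_e7_Op
  · exact chk_e7_Om
  · exact chk_e6_L
  · exact chk_e6_Sp
  · exact chk_e6_Op
  · exact chk_e6_Om
  · exact chk_te6_L
  · exact chk_te6_Sp
  · exact chk_te6_Op
  · exact chk_te6_Om
  · exact chk_f4_L
  · exact chk_f4_Sp
  · exact chk_f4_Op
  · exact chk_f4_Om
  · exact chk_g2_L
  · exact chk_g2_Sp
  · exact chk_g2_Op
  · exact chk_g2_Om
  · exact chk_td4_L
  · exact chk_td4_Sp
  · exact chk_td4_Op
  · exact chk_td4_Om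
  · exact chk_tf4_L
  · exact chk_tf4_Sp
  · exact chk_tf4_Op
  · exact chk_tf4_Om

theorem chk_spec {F : Fam} {t : Ty} {F0 D0 f d : ℕ} (h : chk F t F0 D0 = true) (hf : f < F0) (hd : d < D0)
    (hok : okF F f = true) (hd0 : d0 t ≤ d) (hn : nT t d ≤ NF F * f)
    (hb : (2 * NF F + lF F) * f < 2 * nT t d + 5 * d + 14) (hdv : oT t d ∣ gF F f) : BT t d < gF F f := by
  unfold chk at h
  rw [List.all_eq_true] at h
  have h1 := h f (List.mem_range.2 hf)
  rw [hok, Bool.not_true, Bool.false_or, List.all_eq_true] at h1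
  have h2 := h1 d (List.mem_range.2 hd)
  simp only [Bool.or_eq_true, Nat.blt_eq, Nat.ble_eq, Bool.not_eq_true'] at h2
  rcases h2 with (((h2 | h2) | h2) | h2) | h2
  · omega
  · omega
  · omega
  · exact h2
  · rw [Nat.mod_eq_zero_of_dvd hdv] at h2
    exact absurd h2 (by decide)

/-! ### the general estimates -/

theorem pr2_pos (n : ℕ) : 0 < pr2 n := by
  induction n with
  | zero => exact one_pos
  | succ n ih =>
    refine Nat.mul_pos ih ?_
    have : 2 ^ 1 ≤ 2 ^ (2 * (n + 1)) := Nat.pow_le_pow_right (by norm_num) (by omega)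
    omega

theorem pr2_le (n : ℕ) : pr2 n ≤ 2 ^ (n * (n + 1)) := by
  induction n with
  | zero => exact le_rfl
  | succ n ih =>
    calc pr2 n * (2 ^ (2 * (n + 1)) - 1) ≤ 2 ^ (n * (n + 1)) * 2 ^ (2 * (n + 1)) := Nat.mul_le_mul ih (Nat.sub_le _ _)
      _ = 2 ^ ((n + 1) * (n + 1 + 1)) := by rw [← pow_add]; congr 1; ring

theorem pr1_sq_le (n : ℕ) : pr1 n ^ 2 ≤ 2 ^ (n * (n + 3)) := by
  induction n with
  | zero => exact le_rfl
  | succ n ih =>
    calc (pr1 n * (2 ^ (n + 2) - 1)) ^ 2 ≤ 2 ^ (n * (n + 3)) * (2 ^ (n + 2)) ^ 2 := by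
          rw [mul_pow]
          exact Nat.mul_le_mul ih (Nat.pow_le_pow_left (Nat.sub_le _ _) 2)
      _ = 2 ^ ((n + 1) * (n + 1 + 3)) := by rw [← pow_mul, ← pow_add]; congr 1; ring

theorem pr1_le {n m : ℕ} (h : n * (n + 3) = 2 * m) : pr1 n ≤ 2 ^ m := by
  have h1 := pr1_sq_le n
  rw [h, mul_comm, pow_mul] at h1
  exact (Nat.pow_le_pow_iff_left (by norm_num)).1 h1

theorem two_nT (d : ℕ) : 2 * (d * (d - 1) / 2) = d * (d - 1) :=
  Nat.mul_div_cancel' (Nat.even_mul_pred_self d).two_dvd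

/-- `BT ≤ 2 ^ (2 nT + 5 d + 3)` -/
theorem BT_le (t : Ty) {d : ℕ} (hd : 1 ≤ d) : BT t d ≤ 2 ^ (2 * nT t d + 5 * d + 3) := by
  obtain ⟨n, rfl⟩ : ∃ n, d = n + 1 := ⟨d - 1, by omega⟩
  cases t
  · -- `L`
    have h1 := two_nT (n + 1)
    simp only [Nat.add_sub_cancel] at h1
    have h2 : pr1 n ≤ 2 ^ ((n + 1) * n / 2 + n) := pr1_le (by
      have : 2 * ((n + 1) * n / 2 + n) = (n + 1) * n + 2 * n := by rw [mul_add, h1]
      rw [this]; ring)
    simp only [BT, uT, oT, cT, nT, Nat.add_sub_cancel]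
    set m := (n + 1) * n / 2 with hm
    calc 2 * (2 ^ m * pr1 n) * 2 ^ (3 * (n + 1)) ≤ 2 * (2 ^ m * 2 ^ (m + n)) * 2 ^ (3 * (n + 1)) :=
          Nat.mul_le_mul_right _ (Nat.mul_le_mul_left _ (Nat.mul_le_mul_left _ h2))
      _ = 2 ^ (1 + (m + (m + n)) + 3 * (n + 1)) := by ring
      _ ≤ 2 ^ (2 * m + 5 * (n + 1) + 3) := Nat.pow_le_pow_right (by norm_num) (by omega)
  · have h2 := pr2_le (n + 1)
    simp only [BT, uT, oT, cT, nT]
    calc 1 * (2 ^ ((n + 1) ^ 2) * pr2 (n + 1)) * 2 ^ (4 * (n + 1)) ≤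
          1 * (2 ^ ((n + 1) ^ 2) * 2 ^ ((n + 1) * (n + 1 + 1))) * 2 ^ (4 * (n + 1)) :=
          Nat.mul_le_mul_right _ (Nat.mul_le_mul_left _ (Nat.mul_le_mul_left _ h2))
      _ = 2 ^ ((n + 1) ^ 2 + (n + 1) * (n + 1 + 1) + 4 * (n + 1)) := by rw [one_mul, pow_add, pow_add]
      _ ≤ 2 ^ (2 * (n + 1) ^ 2 + 5 * (n + 1) + 3) := Nat.pow_le_pow_right (by norm_num) (by nlinarith)
  · have h2 := pr2_le n
    simp only [BT, uT, oT, cT, nT, Nat.add_sub_cancel]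
    calc 6 * (2 ^ ((n + 1) * n) * (2 ^ (n + 1) - 1) * pr2 n) * 2 ^ (4 * (n + 1)) ≤
          2 ^ 3 * (2 ^ ((n + 1) * n) * 2 ^ (n + 1) * 2 ^ (n * (n + 1))) * 2 ^ (4 * (n + 1)) := by
          refine Nat.mul_le_mul_right _ (Nat.mul_le_mul (by norm_num) (Nat.mul_le_mul (Nat.mul_le_mul_left _ (Nat.sub_le _ _)) h2))
      _ = 2 ^ (3 + ((n + 1) * n + (n + 1) + n * (n + 1)) + 4 * (n + 1)) := by ring
      _ ≤ 2 ^ (2 * ((n + 1) * n) + 5 * (n + 1) + 3) := Nat.pow_le_pow_right (by norm_num) (by nlinarith)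
  · have h2 := pr2_le n
    have h3 : 2 ^ (n + 1) + 1 ≤ 2 ^ (n + 2) := by
      rw [pow_succ 2 (n + 1)]
      have := Nat.one_le_two_pow (n := n + 1)
      omega
    simp only [BT, uT, oT, cT, nT, Nat.add_sub_cancel]
    calc 2 * (2 ^ ((n + 1) * n) * (2 ^ (n + 1) + 1) * pr2 n) * 2 ^ (4 * (n + 1)) ≤
          2 ^ 1 * (2 ^ ((n + 1) * n) * 2 ^ (n + 2) * 2 ^ (n * (n + 1))) * 2 ^ (4 * (n + 1)) := by
          refine Nat.mul_le_mul_right _ (Nat.mul_le_mul (by norm_num) (Nat.mul_le_mul (Nat.mul_le_mul_left _ h3) h2))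
      _ = 2 ^ (1 + ((n + 1) * n + (n + 2) + n * (n + 1)) + 4 * (n + 1)) := by ring
      _ ≤ 2 ^ (2 * ((n + 1) * n) + 5 * (n + 1) + 3) := Nat.pow_le_pow_right (by norm_num) (by nlinarith)

theorem two_nT_ge (t : Ty) (d : ℕ) : d * (d - 1) ≤ 2 * nT t d := by
  cases t
  · exact (two_nT d).ge
  · show d * (d - 1) ≤ 2 * d ^ 2
    have : d * (d - 1) ≤ d * d := Nat.mul_le_mul_left _ (Nat.sub_le _ _)
    nlinarith
  · show d * (d - 1) ≤ 2 * (d * (d - 1))
    omega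
  · show d * (d - 1) ≤ 2 * (d * (d - 1))
    omega

theorem pow_nT_dvd (t : Ty) (d : ℕ) : 2 ^ nT t d ∣ oT t d := by
  cases t
  · exact Dvd.intro _ rfl
  · exact Dvd.intro _ rfl
  · exact Dvd.intro _ (mul_assoc _ _ _).symm
  · exact Dvd.intro _ (mul_assoc _ _ _).symm

theorem half {a : ℕ} (h : 2 ≤ a) : a ≤ 2 * (a - 1) := by omega

theorem zF_le (F : Fam) (q : ℕ) : zF F q ≤ 3 := by
  cases F
  · exact (by norm_num : 1 ≤ 3)
  · exact (Nat.gcd_le_left _ (by norm_num)).trans (by norm_num)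
  · exact Nat.gcd_le_left _ (by norm_num)
  · exact Nat.gcd_le_left _ (by norm_num)
  · exact (by norm_num : 1 ≤ 3)
  · exact (by norm_num : 1 ≤ 3)
  · exact (by norm_num : 1 ≤ 3)
  · exact (by norm_num : 1 ≤ 3)

theorem zF_pos (F : Fam) (q : ℕ) : 0 < zF F q := by
  cases F
  · exact one_pos
  · exact Nat.gcd_pos_of_pos_left _ (by norm_num)
  · exact Nat.gcd_pos_of_pos_left _ (by norm_num)
  · exact Nat.gcd_pos_of_pos_left _ (by norm_num)
  · exact one_pos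
  · exact one_pos
  · exact one_pos
  · exact one_pos


/-- the factors `q ^ m - 1`, `q = 2 ^ f` -/
theorem fac {f : ℕ} (hf : 1 ≤ f) {m : ℕ} (hm : 1 ≤ m) : (2 ^ f) ^ m ≤ 2 * ((2 ^ f) ^ m - 1) := by
  apply half
  rw [← pow_mul]
  calc 2 = 2 ^ 1 := by norm_num
    _ ≤ 2 ^ (f * m) := Nat.pow_le_pow_right (by norm_num) (Nat.mul_pos hf hm)

theorem odd_sub {f : ℕ} (hf : 1 ≤ f) {m : ℕ} (hm : 1 ≤ m) : Odd ((2 ^ f) ^ m - 1) := by
  rw [← pow_mul]
  have h1 : Even (2 ^ (f * m)) := (Nat.even_pow' (Nat.mul_pos hf hm).ne').2 even_two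
  exact Nat.Even.sub_odd Nat.one_le_two_pow h1 odd_one

theorem odd_add {f : ℕ} (hf : 1 ≤ f) {m : ℕ} (hm : 1 ≤ m) : Odd ((2 ^ f) ^ m + 1) := by
  rw [← pow_mul]
  have h1 : Even (2 ^ (f * m)) := (Nat.even_pow' (Nat.mul_pos hf hm).ne').2 even_two
  exact h1.add_odd odd_one

theorem hF_odd (F : Fam) {f : ℕ} (hf : 1 ≤ f) : Odd (hF F (2 ^ f)) := by
  cases F
  · simp only [hF]
    exact (((((((odd_sub hf (by norm_num)).mul (odd_sub hf (by norm_num))).mul (odd_sub hf (by norm_num))).mul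
      (odd_sub hf (by norm_num))).mul (odd_sub hf (by norm_num))).mul (odd_sub hf (by norm_num))).mul
      (odd_sub hf (by norm_num))).mul (odd_sub hf (by norm_num))
  · simp only [hF]
    exact ((((((odd_sub hf (by norm_num)).mul (odd_sub hf (by norm_num))).mul (odd_sub hf (by norm_num))).mul
      (odd_sub hf (by norm_num))).mul (odd_sub hf (by norm_num))).mul (odd_sub hf (by norm_num))).mul
      (odd_sub hf (by norm_num))
  · simp only [hF]
    exact (((((odd_sub hf (by norm_num)).mul (odd_sub hf (by norm_num))).mul (odd_sub hf (by norm_num))).mul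
      (odd_sub hf (by norm_num))).mul (odd_sub hf (by norm_num))).mul (odd_sub hf (by norm_num))
  · simp only [hF]
    exact (((((odd_sub hf (by norm_num)).mul (odd_add hf (by norm_num))).mul (odd_sub hf (by norm_num))).mul
      (odd_sub hf (by norm_num))).mul (odd_add hf (by norm_num))).mul (odd_sub hf (by norm_num))
  · simp only [hF]
    exact (((odd_sub hf (by norm_num)).mul (odd_sub hf (by norm_num))).mul (odd_sub hf (by norm_num))).mul
      (odd_sub hf (by norm_num))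
  · simp only [hF]
    exact (odd_sub hf (by norm_num)).mul (odd_sub hf (by norm_num))
  · simp only [hF]
    refine ((odd_sub hf (by norm_num)).mul (odd_sub hf (by norm_num))).mul ?_
    have h1 : Even ((2 ^ f) ^ 8) := by
      rw [← pow_mul]
      exact (Nat.even_pow' (by omega)).2 even_two
    have h2 : Even ((2 ^ f) ^ 4) := by
      rw [← pow_mul]
      exact (Nat.even_pow' (by omega)).2 even_two
    exact (h1.add h2).add_odd odd_one
  · simp only [hF]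
    refine (((?_ : Odd (2 ^ f - 1)).mul (odd_add hf (by norm_num))).mul (odd_sub hf (by norm_num))).mul
      (odd_add hf (by norm_num))
    have := odd_sub hf (m := 1) le_rfl
    rwa [pow_one] at this

/-- `q ^ (N + l) ≤ 2 ^ 8 * odd part` -/
theorem hF_ge (F : Fam) {f : ℕ} (hf : 1 ≤ f) : (2 ^ f) ^ (NF F + lF F) ≤ 2 ^ 8 * hF F (2 ^ f) := by
  have k : ∀ m, 1 ≤ m → (2 ^ f) ^ m ≤ 2 * ((2 ^ f) ^ m - 1) := fun m hm => fac hf hm
  have hq : 1 ≤ 2 ^ f := Nat.one_le_two_pow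
  cases F
  · have h := Nat.mul_le_mul (Nat.mul_le_mul (Nat.mul_le_mul (Nat.mul_le_mul (Nat.mul_le_mul (Nat.mul_le_mul
      (Nat.mul_le_mul (k 2 (by norm_num)) (k 8 (by norm_num))) (k 12 (by norm_num))) (k 14 (by norm_num)))
      (k 18 (by norm_num))) (k 20 (by norm_num))) (k 24 (by norm_num))) (k 30 (by norm_num))
    simp only [NF, lF, hF]
    calc (2 ^ f) ^ (120 + 8) = _ := by ring
      _ ≤ _ := h
      _ = _ := by ring
  · have h := Nat.mul_le_mul (Nat.mul_le_mul (Nat.mul_le_mul (Nat.mul_le_mul (Nat.mul_le_mul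
      (Nat.mul_le_mul (k 2 (by norm_num)) (k 6 (by norm_num))) (k 8 (by norm_num))) (k 10 (by norm_num)))
      (k 12 (by norm_num))) (k 14 (by norm_num))) (k 18 (by norm_num))
    simp only [NF, lF, hF]
    calc (2 ^ f) ^ (63 + 7) = _ := by ring
      _ ≤ _ := h
      _ = 2 ^ 7 * ((((2 ^ f) ^ 2 - 1) * ((2 ^ f) ^ 6 - 1) * ((2 ^ f) ^ 8 - 1) * ((2 ^ f) ^ 10 - 1) * ((2 ^ f) ^ 12 - 1) *
          ((2 ^ f) ^ 14 - 1) * ((2 ^ f) ^ 18 - 1))) := by ring
      _ ≤ _ := Nat.mul_le_mul_right _ (by norm_num)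
  · have h := Nat.mul_le_mul (Nat.mul_le_mul (Nat.mul_le_mul (Nat.mul_le_mul
      (Nat.mul_le_mul (k 2 (by norm_num)) (k 5 (by norm_num))) (k 6 (by norm_num))) (k 8 (by norm_num)))
      (k 9 (by norm_num))) (k 12 (by norm_num))
    simp only [NF, lF, hF]
    calc (2 ^ f) ^ (36 + 6) = _ := by ring
      _ ≤ _ := h
      _ = 2 ^ 6 * ((((2 ^ f) ^ 2 - 1) * ((2 ^ f) ^ 5 - 1) * ((2 ^ f) ^ 6 - 1) * ((2 ^ f) ^ 8 - 1) * ((2 ^ f) ^ 9 - 1) *
          ((2 ^ f) ^ 12 - 1))) := by ring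
      _ ≤ _ := Nat.mul_le_mul_right _ (by norm_num)
  · have h := Nat.mul_le_mul (Nat.mul_le_mul (Nat.mul_le_mul (Nat.mul_le_mul
      (Nat.mul_le_mul (k 2 (by norm_num)) (Nat.le_succ ((2 ^ f) ^ 5))) (k 6 (by norm_num))) (k 8 (by norm_num)))
      (Nat.le_succ ((2 ^ f) ^ 9))) (k 12 (by norm_num))
    simp only [NF, lF, hF]
    calc (2 ^ f) ^ (36 + 6) = _ := by ring
      _ ≤ _ := h
      _ = 2 ^ 4 * ((((2 ^ f) ^ 2 - 1) * ((2 ^ f) ^ 5 + 1) * ((2 ^ f) ^ 6 - 1) * ((2 ^ f) ^ 8 - 1) * ((2 ^ f) ^ 9 + 1) *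
          ((2 ^ f) ^ 12 - 1))) := by simp only [Nat.succ_eq_add_one]; ring
      _ ≤ _ := Nat.mul_le_mul_right _ (by norm_num)
  · have h := Nat.mul_le_mul (Nat.mul_le_mul
      (Nat.mul_le_mul (k 2 (by norm_num)) (k 6 (by norm_num))) (k 8 (by norm_num))) (k 12 (by norm_num))
    simp only [NF, lF, hF]
    calc (2 ^ f) ^ (24 + 4) = _ := by ring
      _ ≤ _ := h
      _ = 2 ^ 4 * ((((2 ^ f) ^ 2 - 1) * ((2 ^ f) ^ 6 - 1) * ((2 ^ f) ^ 8 - 1) * ((2 ^ f) ^ 12 - 1))) := by ring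
      _ ≤ _ := Nat.mul_le_mul_right _ (by norm_num)
  · have h := Nat.mul_le_mul (k 2 (by norm_num)) (k 6 (by norm_num))
    simp only [NF, lF, hF]
    calc (2 ^ f) ^ (6 + 2) = _ := by ring
      _ ≤ _ := h
      _ = 2 ^ 2 * ((((2 ^ f) ^ 2 - 1) * ((2 ^ f) ^ 6 - 1))) := by ring
      _ ≤ _ := Nat.mul_le_mul_right _ (by norm_num)
  · have h3 : (2 ^ f) ^ 8 ≤ (2 ^ f) ^ 8 + (2 ^ f) ^ 4 + 1 := by rw [add_assoc]; exact Nat.le_add_right _ _
    have h := Nat.mul_le_mul (Nat.mul_le_mul (k 2 (by norm_num)) (k 6 (by norm_num))) h3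
    simp only [NF, lF, hF]
    calc (2 ^ f) ^ (12 + 4) = _ := by ring
      _ ≤ _ := h
      _ = 2 ^ 2 * ((((2 ^ f) ^ 2 - 1) * ((2 ^ f) ^ 6 - 1) * ((2 ^ f) ^ 8 + (2 ^ f) ^ 4 + 1))) := by ring
      _ ≤ _ := Nat.mul_le_mul_right _ (by norm_num)
  · have h := Nat.mul_le_mul (Nat.mul_le_mul (Nat.mul_le_mul (k 1 le_rfl) (Nat.le_succ ((2 ^ f) ^ 3))) (k 4 (by norm_num)))
      (Nat.le_succ ((2 ^ f) ^ 6))
    simp only [NF, lF, hF]
    rw [pow_one] at h
    calc (2 ^ f) ^ (12 + 2) = _ := by ring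
      _ ≤ _ := h
      _ = 2 ^ 2 * ((((2 ^ f) - 1) * ((2 ^ f) ^ 3 + 1) * ((2 ^ f) ^ 4 - 1) * ((2 ^ f) ^ 6 + 1))) := by
          simp only [Nat.succ_eq_add_one]; ring
      _ ≤ _ := Nat.mul_le_mul_right _ (by norm_num)


theorem gF_eq {F : Fam} {f g : ℕ} (hG : zF F (2 ^ f) * g = (2 ^ f) ^ NF F * hF F (2 ^ f)) : gF F f = g := by
  rw [gF, ← hG]
  exact Nat.mul_div_cancel_left _ (zF_pos F _)

theorem nT_le {F : Fam} {t : Ty} {f d g : ℕ} (hf : 1 ≤ f) (hG : zF F (2 ^ f) * g = (2 ^ f) ^ NF F * hF F (2 ^ f))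
    (hdv : oT t d ∣ g) : nT t d ≤ NF F * f := by
  have h1 : 2 ^ nT t d ∣ (2 ^ f) ^ NF F * hF F (2 ^ f) := by
    rw [← hG]
    exact ((pow_nT_dvd t d).trans hdv).mul_left _
  have h2 : Nat.Coprime (2 ^ nT t d) (hF F (2 ^ f)) := (Nat.coprime_two_left.2 (hF_odd F hf)).pow_left _
  have h3 : 2 ^ nT t d ∣ (2 ^ f) ^ NF F := h2.dvd_of_dvd_mul_right h1
  rw [← pow_mul, mul_comm] at h3
  exact (Nat.pow_dvd_pow_iff_le_right (by norm_num)).1 h3

theorem g_ge {F : Fam} {f g : ℕ} (hf : 1 ≤ f) (hG : zF F (2 ^ f) * g = (2 ^ f) ^ NF F * hF F (2 ^ f)) :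
    2 ^ ((2 * NF F + lF F) * f) ≤ 2 ^ 10 * g := by
  calc 2 ^ ((2 * NF F + lF F) * f) = (2 ^ f) ^ NF F * (2 ^ f) ^ (NF F + lF F) := by
        rw [← pow_add, ← pow_mul]
        congr 1
        ring
    _ ≤ (2 ^ f) ^ NF F * (2 ^ 8 * hF F (2 ^ f)) := Nat.mul_le_mul_left _ (hF_ge F hf)
    _ = 2 ^ 8 * (zF F (2 ^ f) * g) := by rw [hG]; ring
    _ ≤ 2 ^ 8 * (2 ^ 2 * g) := Nat.mul_le_mul_left _ (Nat.mul_le_mul_right _ ((zF_le F _).trans (by norm_num)))
    _ = 2 ^ 10 * g := by ring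

theorem ok_pos {F : Fam} {f : ℕ} (h : okF F f = true) : 1 ≤ f := by
  cases F
  all_goals
    simp only [okF, Nat.ble_eq, Bool.and_eq_true] at h
    omega

/-- `d` is bounded -/
theorem bd {N l D d f : ℕ} (h1 : d * (d - 1) ≤ 2 * N * f) (h2 : l * f < 5 * d + 14) (hD : 1 ≤ D)
    (h3 : 26 * N + 10 * N * D < (D - 1) * l * D) (h4 : 10 * N ≤ (D - 1) * l) : d < D := by
  by_contra hcon
  push Not at hcon
  obtain ⟨a, rfl⟩ : ∃ a, D = a + 1 := ⟨D - 1, by omega⟩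
  obtain ⟨b, rfl⟩ : ∃ b, d = b + 1 := ⟨d - 1, by omega⟩
  simp only [Nat.add_sub_cancel] at *
  have hab : a ≤ b := by omega
  have h5 : l * ((b + 1) * b) ≤ 2 * N * (5 * (b + 1) + 13) := by
    calc l * ((b + 1) * b) ≤ l * (2 * N * f) := Nat.mul_le_mul_left _ h1
      _ = 2 * N * (l * f) := by ring
      _ ≤ 2 * N * (5 * (b + 1) + 13) := Nat.mul_le_mul_left _ (by omega)
  have h6 : l * ((b + 1) * a) ≤ l * ((b + 1) * b) := Nat.mul_le_mul_left _ (Nat.mul_le_mul_left _ hab)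
  obtain ⟨c, rfl⟩ := Nat.exists_eq_add_of_le hab
  obtain ⟨u, hu⟩ := Nat.exists_eq_add_of_le h4
  have h7 : a * l * (a + c + 1) = 10 * N * (a + c + 1) + u * (a + c + 1) := by rw [hu]; ring
  have h8 : a * l * (a + 1) = 10 * N * (a + 1) + u * (a + 1) := by rw [hu]; ring
  nlinarith

/-- **The numbers.** -/
theorem num {F : Fam} {t : Ty} {f d g : ℕ} (hok : okF F f = true) (hd0 : d0 t ≤ d)
    (hG : zF F (2 ^ f) * g = (2 ^ f) ^ NF F * hF F (2 ^ f)) (hdv : oT t d ∣ g) : BT t d < g := by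
  have hf := ok_pos hok
  have hd1 : 1 ≤ d := by
    cases t
    all_goals
      simp only [d0] at hd0
      omega
  have hn := nT_le hf hG hdv
  have hlow := g_ge hf hG
  by_cases hb : 2 * nT t d + 5 * d + 14 ≤ (2 * NF F + lF F) * f
  · have h1 := BT_le t hd1
    have h2 : 2 ^ 10 * 2 ^ (2 * nT t d + 5 * d + 4) ≤ 2 ^ 10 * g := by
      rw [← pow_add]
      exact (Nat.pow_le_pow_right (by norm_num) (by omega)).trans hlow
    have h3 := Nat.le_of_mul_le_mul_left h2 (by norm_num)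
    have h4 : 2 ^ (2 * nT t d + 5 * d + 4) = 2 * 2 ^ (2 * nT t d + 5 * d + 3) := by ring
    have h5 : 0 < 2 ^ (2 * nT t d + 5 * d + 3) := by positivity
    omega
  · push Not at hb
    have h1 : d * (d - 1) ≤ 2 * NF F * f := (two_nT_ge t d).trans (by nlinarith)
    have h2 : lF F * f < 5 * d + 14 := by
      have : (2 * NF F + lF F) * f = 2 * (NF F * f) + lF F * f := by ring
      omega
    have h3 : d < DD F := by
      cases F
      · exact bd h1 h2 (by decide) (by decide) (by decide)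
      · exact bd h1 h2 (by decide) (by decide) (by decide)
      · exact bd h1 h2 (by decide) (by decide) (by decide)
      · exact bd h1 h2 (by decide) (by decide) (by decide)
      · exact bd h1 h2 (by decide) (by decide) (by decide)
      · exact bd h1 h2 (by decide) (by decide) (by decide)
      · exact bd h1 h2 (by decide) (by decide) (by decide)
      · exact bd h1 h2 (by decide) (by decide) (by decide)
    have h4 : f < FF F := by
      cases F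
      all_goals
        simp only [lF, DD, FF] at h2 h3 ⊢
        omega
    have h5 := gF_eq hG
    have h6 := chk_spec (chk_all F t) h4 h3 hok hd0 hn hb (by rw [h5]; exact hdv)
    rwa [h5] at h6

end Cfsg.Agent.H742.EX.Q2
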